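import Cfsg.Agent.H955.L34.Gen
import Cfsg.Agent.H550.L34.Rel

/-!
# S5917: the unitary group is generated by helper550's matrices `gD`, `gP`, `gW`, `gJ` (helper955)
-/

set_option autoImplicit false
set_option linter.unusedSectionVars false

namespace Cfsg.Agent.H955.L34.Gen

open Matrix Cfsg.Agent.H691.L34 Cfsg.Agent.H904.L34 Cfsg.Agent.H904.L34.Unit Module Cfsg.Agent.H550.L34

variable {F : Type} [Field F] [Fintype F] {ω : F}

theorem om_w (h : Om ω) : (ω + 1) ^ 2 + (ω + 1) + 1 = 0 := by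
  linear_combination h.eq + (2 * ω + 2) * h.two

theorem om_sq (h : Om ω) : (ω + 1) ^ 2 = ω := by
  linear_combination h.eq + (ω + 1) * h.two

/-- **the unitary group is generated by `gD`, `gP`, `gW`, `gJ`** -/
theorem mem_of_unitary550 (hF : Fintype.card F = 4) (h : Om ω) {T : Subgroup (G3 F)} (hD : gD h ∈ T) (hP : gP h ∈ T)
    (hW : gW h ∈ T) (hJ : gJ h ∈ T) (hT : ∀ t ∈ T, hact t (1 : M3 F) = 1) {g : G3 F} (hg : hact g (1 : M3 F) = 1) :
    g ∈ T := by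
  have hw := om_w h
  have hs := om_sq h
  have e1 : g1 (ω + 1) hw = gD h * gD h := by
    apply Subtype.ext
    rw [co_mul]
    show (!![1, 0, 0; 0, ω + 1, 0; 0, 0, (ω + 1) ^ 2] : M3 F) =
      !![1, 0, 0; 0, ω, 0; 0, 0, ω + 1] * !![1, 0, 0; 0, ω, 0; 0, 0, ω + 1]
    rw [mulM]
    refine eqM ?_ ?_ ?_ ?_ ?_ ?_ ?_ ?_ ?_ <;> first | ring1 | linear_combination -h.eq | linear_combination h.eq
  have e2 : (g2 : G3 F) = gP h * gP h := by
    apply Subtype.ext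
    rw [co_mul]
    show (!![0, 0, 1; 1, 0, 0; 0, 1, 0] : M3 F) =
      !![0, 1, 0; 0, 0, 1; 1, 0, 0] * !![0, 1, 0; 0, 0, 1; 1, 0, 0]
    rw [mulM]
    refine eqM ?_ ?_ ?_ ?_ ?_ ?_ ?_ ?_ ?_ <;> ring
  have e3 : gi (ω + 1) hw hF = gW h := by
    apply Subtype.ext
    show (!![1, 1, 1; 1, (ω + 1) ^ 2, (ω + 1); 1, (ω + 1), (ω + 1) ^ 2] : M3 F) = !![1, 1, 1; 1, ω, ω + 1; 1, ω + 1, ω]
    rw [hs]
  have e4 : gj (ω + 1) hw hF = gJ h := by
    apply Subtype.ext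
    show (!![1, (ω + 1), (ω + 1); (ω + 1) ^ 2, (ω + 1) ^ 2, (ω + 1); (ω + 1) ^ 2, (ω + 1), (ω + 1) ^ 2] : M3 F) =
      !![1, ω + 1, ω + 1; ω, ω, ω + 1; ω, ω + 1, ω]
    rw [hs]
  have h1 : g1 (ω + 1) hw ∈ T := by rw [e1]; exact T.mul_mem hD hD
  have h2 : (g2 : G3 F) ∈ T := by rw [e2]; exact T.mul_mem hP hP
  have h0 : s0 (ω + 1) hw ∈ T := by
    have h3 := g12 hw
    have h4 : s0 (ω + 1) hw = g1 (ω + 1) hw * g2 * (g2 * g1 (ω + 1) hw)⁻¹ := by rw [h3, mul_inv_cancel_right]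
    rw [h4]
    exact T.mul_mem (T.mul_mem h1 h2) (T.inv_mem (T.mul_mem h2 h1))
  exact mem_of_unitary hF hw h0 h1 h2 (by rw [e3]; exact hW) (by rw [e4]; exact hJ) hT hg

/-- a vector fixed by `gD`, `gP`, `gW`, `gJ` is fixed by the unitary group -/
theorem fix_of550 (hF : Fintype.card F = 4) (h : Om ω) {V : Type} [AddCommGroup V] [Module (ZMod 2) V]
    {ρ : Representation (ZMod 2) (G3 F) V} {v : V} (hD : ρ (gD h) v = v) (hP : ρ (gP h) v = v) (hW : ρ (gW h) v = v)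
    (hJ : ρ (gJ h) v = v) {g : G3 F} (hg : hact g (1 : M3 F) = 1) : ρ g v = v := by
  let T : Subgroup (G3 F) :=
    { carrier := {g | hact g (1 : M3 F) = 1 ∧ ρ g v = v}
      one_mem' := ⟨(RR hF).one_mem, by rw [map_one]; rfl⟩
      mul_mem' := by
        rintro g h ⟨hg1, hg⟩ ⟨hh1, hh⟩
        refine ⟨(RR hF).mul_mem hg1 hh1, ?_⟩
        rw [map_mul, Module.End.mul_apply, hh, hg]
      inv_mem' := by
        rintro g ⟨hg1, hg⟩
        refine ⟨(RR hF).inv_mem hg1, ?_⟩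
        have h5 : ρ g⁻¹ (ρ g v) = v := by
          rw [← Module.End.mul_apply, ← map_mul, inv_mul_cancel, map_one]
          rfl
        rwa [hg] at h5 }
  have uD : hact (gD h) (1 : M3 F) = 1 := by
    rw [hact_def, Matrix.mul_one]
    exact DD h
  have uP : hact (gP h) (1 : M3 F) = 1 := by
    rw [hact_def, Matrix.mul_one]
    exact PP h
  have uW : hact (gW h) (1 : M3 F) = 1 := by
    rw [hact_def, Matrix.mul_one]
    exact WW h
  have uJ : hact (gJ h) (1 : M3 F) = 1 := by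
    rw [hact_def, Matrix.mul_one]
    exact JJ h
  exact (mem_of_unitary550 hF h (T := T) ⟨uD, hD⟩ ⟨uP, hP⟩ ⟨uW, hW⟩ ⟨uJ, hJ⟩ (fun t ht => ht.1) hg).2

end Cfsg.Agent.H955.L34.Gen
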