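import Cfsg.Agent.H904.L34.UMat

/-!
# S5917: the unitary group is generated by `s0`, `g1`, `g2`, `gi`, `gj` (helper955)
-/

set_option autoImplicit false
set_option linter.unusedSectionVars false

namespace Cfsg.Agent.H955.L34.Gen

open Matrix Cfsg.Agent.H691.L34 Cfsg.Agent.H904.L34 Cfsg.Agent.H904.L34.Unit Module

variable {F : Type} [Field F] [Fintype F]

theorem cases4 (hF : Fintype.card F = 4) {w : F} (hw : w ^ 2 + w + 1 = 0) {x : F} (hx : x ≠ 0) :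
    x = 1 ∨ x = w ∨ x = w ^ 2 := by
  have h : x ^ 3 = 1 := pow_three hF hx
  have h1 : (x - 1) * ((x - w) * (x - w ^ 2)) = 0 := by
    have h3 : w ^ 3 = 1 := by linear_combination (w - 1) * hw
    linear_combination h + (-x ^ 2 + x) * hw + (x - 1) * h3
  rcases mul_eq_zero.1 h1 with h | h
  · exact Or.inl (sub_eq_zero.1 h)
  rcases mul_eq_zero.1 h with h | h
  · exact Or.inr (Or.inl (sub_eq_zero.1 h))
  · exact Or.inr (Or.inr (sub_eq_zero.1 h))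

theorem ext9 {g h : G3 F} (h1 : ∀ i j, g.1 i j = h.1 i j) : g = h := Subtype.ext (Matrix.ext h1)

/-- the entries of a matrix -/
theorem eta (M : M3 F) : M = !![M 0 0, M 0 1, M 0 2; M 1 0, M 1 1, M 1 2; M 2 0, M 2 1, M 2 2] := by
  ext i j
  fin_cases i <;> fin_cases j <;> rfl

section

variable (hF : Fintype.card F = 4) {w : F} (hw : w ^ 2 + w + 1 = 0) {T : Subgroup (G3 F)} (h0 : s0 w hw ∈ T)
  (h1 : g1 w hw ∈ T) (h2 : g2 ∈ T) (hi : gi w hw hF ∈ T) (hj : gj w hw hF ∈ T)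

include hF h0 in
/-- scalars -/
theorem exists_sc {x : F} (hx : x ≠ 0) : ∃ g ∈ T, g.1 = !![x, 0, 0; 0, x, 0; 0, 0, x] := by
  rcases cases4 hF hw hx with rfl | rfl | rfl
  · exact ⟨1, T.one_mem, one_eq⟩
  · exact ⟨_, h0, rfl⟩
  · refine ⟨s0 w hw * s0 w hw, T.mul_mem h0 h0, ?_⟩
    rw [co_mul]
    show (!![w, 0, 0; 0, w, 0; 0, 0, w] * !![w, 0, 0; 0, w, 0; 0, 0, w] : M3 F) = _
    rw [mulM]
    refine eqM ?_ ?_ ?_ ?_ ?_ ?_ ?_ ?_ ?_ <;> ring

include hF h1 in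
/-- diagonal elements -/
theorem exists_dg {x : F} (hx : x ≠ 0) : ∃ g ∈ T, g.1 = !![1, 0, 0; 0, x, 0; 0, 0, x ^ 2] := by
  rcases cases4 hF hw hx with rfl | rfl | rfl
  · refine ⟨1, T.one_mem, ?_⟩
    rw [co_one, one_eq, one_pow]
  · exact ⟨_, h1, rfl⟩
  · refine ⟨g1 w hw * g1 w hw, T.mul_mem h1 h1, ?_⟩
    rw [co_mul]
    show (!![1, 0, 0; 0, w, 0; 0, 0, w ^ 2] * !![1, 0, 0; 0, w, 0; 0, 0, w ^ 2] : M3 F) = _
    rw [mulM]
    refine eqM ?_ ?_ ?_ ?_ ?_ ?_ ?_ ?_ ?_ <;> ring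

/-- the equations of a unitary matrix -/
theorem unit_eq {g : G3 F} (hg : hact g (1 : M3 F) = 1) :
    (∀ i j, g.1 i 0 * g.1 j 0 ^ 2 + g.1 i 1 * g.1 j 1 ^ 2 + g.1 i 2 * g.1 j 2 ^ 2 = (1 : M3 F) i j) ∧
    g.1 0 0 ^ 3 + g.1 1 0 ^ 3 + g.1 2 0 ^ 3 = 1 := by
  have e1 : g.1 * ct g.1 = 1 := by
    have h : g.1 * 1 * ct g.1 = 1 := hg
    rwa [Matrix.mul_one] at h
  have e2 : ct g.1 * g.1 = 1 := mul_eq_one_comm.1 e1
  constructor
  · intro i j
    have h : (g.1 * ct g.1) i j = (1 : M3 F) i j := by rw [e1]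
    rw [Matrix.mul_apply, Fin.sum_univ_three] at h
    exact h
  · have h : (ct g.1 * g.1) 0 0 = (1 : M3 F) 0 0 := by rw [e2]
    rw [Matrix.mul_apply, Fin.sum_univ_three] at h
    have h3 : g.1 0 0 ^ 2 * g.1 0 0 + g.1 1 0 ^ 2 * g.1 1 0 + g.1 2 0 ^ 2 * g.1 2 0 = 1 := h
    linear_combination h3

include hF h1 hi in
/-- the elements fixing the first basis vector -/
theorem stab {g : G3 F} (hg : hact g (1 : M3 F) = 1) (c0 : g.1 0 0 = 1) (c1 : g.1 1 0 = 0) (c2 : g.1 2 0 = 0) :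
    g ∈ T := by
  have t2 : (2 : F) = 0 := two_zero hF
  obtain ⟨hu, -⟩ := unit_eq hg
  have hdet : g.1 0 0 * g.1 1 1 * g.1 2 2 - g.1 0 0 * g.1 1 2 * g.1 2 1 - g.1 0 1 * g.1 1 0 * g.1 2 2 +
      g.1 0 1 * g.1 1 2 * g.1 2 0 + g.1 0 2 * g.1 1 0 * g.1 2 1 - g.1 0 2 * g.1 1 1 * g.1 2 0 = 1 := by
    have h := g.2
    rwa [Matrix.det_fin_three] at h
  have u01 := hu 0 1
  have u02 := hu 0 2
  have u11 := hu 1 1
  have u12 := hu 1 2
  have o01 : (1 : M3 F) 0 1 = 0 := Matrix.one_apply_ne (by decide)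
  have o02 : (1 : M3 F) 0 2 = 0 := Matrix.one_apply_ne (by decide)
  have o12 : (1 : M3 F) 1 2 = 0 := Matrix.one_apply_ne (by decide)
  have o11 : (1 : M3 F) 1 1 = 1 := Matrix.one_apply_eq _
  rw [o01, c0, c1] at u01
  rw [o02, c0, c2] at u02
  rw [o12, c1, c2] at u12
  rw [o11, c1] at u11
  rw [c0, c1, c2] at hdet
  have he := eta g.1
  rw [c0, c1, c2] at he
  generalize g.1 0 1 = a at *
  generalize g.1 0 2 = b at *
  generalize g.1 1 1 = p at *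
  generalize g.1 1 2 = q at *
  generalize g.1 2 1 = r at *
  generalize g.1 2 2 = s at *
  have hd : p * s - q * r = 1 := by linear_combination hdet
  have hd2 : p ^ 2 * s ^ 2 + q ^ 2 * r ^ 2 = 1 := by
    linear_combination (p * s - q * r + 1) * hd + (p * q * r * s) * t2
  have ha : a = 0 := by
    linear_combination s ^ 2 * u01 + q ^ 2 * u02 - a * hd2 - (b * q ^ 2 * s ^ 2) * t2
  have hb : b = 0 := by
    linear_combination r ^ 2 * u01 + p ^ 2 * u02 - b * hd2 - (a * p ^ 2 * r ^ 2) * t2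
  subst ha hb
  by_cases hq : q = 0
  · subst hq
    have hp : p ≠ 0 := by
      rintro rfl
      apply one_ne_zero (α := F)
      linear_combination -hd
    have hp3 : p ^ 3 = 1 := pow_three hF hp
    have hr : r = 0 := by
      have h3 : p * r ^ 2 = 0 := by linear_combination u12
      rcases mul_eq_zero.1 h3 with h | h
      · exact absurd h hp
      · exact pow_eq_zero_iff (two_ne_zero) |>.1 h
    subst hr
    have hs : s = p ^ 2 := by linear_combination p ^ 2 * hd - s * hp3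
    subst hs
    obtain ⟨t, ht, e⟩ := exists_dg hF hw h1 hp
    have : g = t := Subtype.ext (he.trans e.symm)
    rwa [this]
  · have hq3 : q ^ 3 = 1 := pow_three hF hq
    have hp : p = 0 := by
      have h3 : p ^ 3 = 0 := by linear_combination u11 - hq3
      exact pow_eq_zero_iff (three_ne_zero) |>.1 h3
    subst hp
    have hs : s = 0 := by
      have h3 : q * s ^ 2 = 0 := by linear_combination u12
      rcases mul_eq_zero.1 h3 with h | h
      · exact absurd h hq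
      · exact pow_eq_zero_iff (two_ne_zero) |>.1 h
    subst hs
    have hr : r = q ^ 2 := by linear_combination (-q ^ 2) * hd - r * hq3 - q ^ 2 * t2
    subst hr
    obtain ⟨t, ht, e⟩ := exists_dg hF hw h1 hq
    have h3 : g = t * (gi w hw hF * gi w hw hF) := by
      apply Subtype.ext
      rw [co_mul, e, ii, mulM, he]
      refine eqM ?_ ?_ ?_ ?_ ?_ ?_ ?_ ?_ ?_ <;> ring
    rw [h3]
    exact T.mul_mem ht (T.mul_mem hi hi)

include hF h0 h1 h2 hi hj in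
/-- the first column -/
theorem column {x y z : F} (h : x ^ 3 + y ^ 3 + z ^ 3 = 1) : ∃ t ∈ T, t.1 0 0 = x ∧ t.1 1 0 = y ∧ t.1 2 0 = z := by
  have t2 : (2 : F) = 0 := two_zero hF
  by_cases hx : x = 0
  · subst hx
    by_cases hy : y = 0
    · subst hy
      have hz : z ≠ 0 := by
        rintro rfl
        apply one_ne_zero (α := F)
        linear_combination -h
      obtain ⟨t, ht, e⟩ := exists_sc hF hw h0 hz
      refine ⟨t * (g2 * g2), T.mul_mem ht (T.mul_mem h2 h2), ?_⟩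
      have e2 : (t * (g2 * g2) : G3 F).1 = !![z, 0, 0; 0, z, 0; 0, 0, z] * (!![0, 0, 1; 1, 0, 0; 0, 1, 0] *
          !![0, 0, 1; 1, 0, 0; 0, 1, 0]) := by rw [co_mul, co_mul, e]; rfl
      rw [mulM, mulM] at e2
      rw [e2]
      refine ⟨?_, ?_, ?_⟩
      · show z * (0 * 0 + 0 * 1 + 1 * 0) + 0 * (1 * 0 + 0 * 1 + 0 * 0) + 0 * (0 * 0 + 1 * 1 + 0 * 0) = 0
        ring
      · show 0 * (0 * 0 + 0 * 1 + 1 * 0) + z * (1 * 0 + 0 * 1 + 0 * 0) + 0 * (0 * 0 + 1 * 1 + 0 * 0) = 0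
        ring
      · show 0 * (0 * 0 + 0 * 1 + 1 * 0) + 0 * (1 * 0 + 0 * 1 + 0 * 0) + z * (0 * 0 + 1 * 1 + 0 * 0) = z
        ring
    · have hy3 : y ^ 3 = 1 := pow_three hF hy
      have hz : z = 0 := by
        have h3 : z ^ 3 = 0 := by linear_combination h - hy3
        exact pow_eq_zero_iff (three_ne_zero) |>.1 h3
      subst hz
      obtain ⟨t, ht, e⟩ := exists_sc hF hw h0 hy
      refine ⟨t * g2, T.mul_mem ht h2, ?_⟩
      have e2 : (t * g2 : G3 F).1 = !![y, 0, 0; 0, y, 0; 0, 0, y] * !![0, 0, 1; 1, 0, 0; 0, 1, 0] := by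
        rw [co_mul, e]; rfl
      rw [mulM] at e2
      rw [e2]
      refine ⟨?_, ?_, ?_⟩
      · show y * 0 + 0 * 1 + 0 * 0 = 0
        ring
      · show 0 * 0 + y * 1 + 0 * 0 = y
        ring
      · show 0 * 0 + 0 * 1 + y * 0 = 0
        ring
  · have hx3 : x ^ 3 = 1 := pow_three hF hx
    by_cases hy : y = 0
    · subst hy
      have hz : z = 0 := by
        have h3 : z ^ 3 = 0 := by linear_combination h - hx3
        exact pow_eq_zero_iff (three_ne_zero) |>.1 h3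
      subst hz
      obtain ⟨t, ht, e⟩ := exists_sc hF hw h0 hx
      refine ⟨t, ht, ?_⟩
      rw [e]
      exact ⟨rfl, rfl, rfl⟩
    · have hy3 : y ^ 3 = 1 := pow_three hF hy
      have hz : z ≠ 0 := by
        rintro rfl
        apply one_ne_zero (α := F)
        linear_combination h - hx3 - hy3
      have hz3 : z ^ 3 = 1 := pow_three hF hz
      obtain ⟨t, ht, e⟩ := exists_sc hF hw h0 hx
      obtain ⟨d, hd, e'⟩ := exists_dg hF hw h1 (x := z * y ^ 2) (mul_ne_zero hz (pow_ne_zero 2 hy))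
      have hk : y ^ 2 * x ^ 2 * z ^ 2 ≠ 0 := mul_ne_zero (mul_ne_zero (pow_ne_zero 2 hy) (pow_ne_zero 2 hx))
        (pow_ne_zero 2 hz)
      -- an element with first column `(1, k, k)`
      obtain ⟨q, hq, q0, q1, q2⟩ : ∃ q ∈ T, q.1 0 0 = 1 ∧ q.1 1 0 = y ^ 2 * x ^ 2 * z ^ 2 ∧
          q.1 2 0 = y ^ 2 * x ^ 2 * z ^ 2 := by
        rcases cases4 hF hw hk with h | h | h <;> rw [h]
        · exact ⟨_, hi, rfl, rfl, rfl⟩
        · refine ⟨gi w hw hF * gj w hw hF, T.mul_mem hi hj, ?_⟩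
          have e2 : (gi w hw hF * gj w hw hF : G3 F).1 = !![1, 1, 1; 1, w ^ 2, w; 1, w, w ^ 2] *
              !![1, w, w; w ^ 2, w ^ 2, w; w ^ 2, w, w ^ 2] := rfl
          rw [mulM] at e2
          rw [e2]
          refine ⟨?_, ?_, ?_⟩
          · show 1 * 1 + 1 * w ^ 2 + 1 * w ^ 2 = 1
            linear_combination w ^ 2 * t2
          · show 1 * 1 + w ^ 2 * w ^ 2 + w * w ^ 2 = w
            linear_combination (w ^ 2 - 1) * hw + t2
          · show 1 * 1 + w * w ^ 2 + w ^ 2 * w ^ 2 = w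
            linear_combination (w ^ 2 - 1) * hw + t2
        · exact ⟨_, hj, rfl, rfl, rfl⟩
      refine ⟨t * (d * q), T.mul_mem ht (T.mul_mem hd hq), ?_⟩
      have e2 : (t * (d * q) : G3 F).1 = !![x, 0, 0; 0, x, 0; 0, 0, x] * (!![1, 0, 0; 0, z * y ^ 2, 0; 0, 0, (z * y ^ 2) ^ 2]
          * !![q.1 0 0, q.1 0 1, q.1 0 2; q.1 1 0, q.1 1 1, q.1 1 2; q.1 2 0, q.1 2 1, q.1 2 2]) := by
        rw [co_mul, co_mul, e, e', ← eta]
      rw [mulM, mulM] at e2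
      rw [e2]
      refine ⟨?_, ?_, ?_⟩
      · show x * (1 * q.1 0 0 + 0 * q.1 1 0 + 0 * q.1 2 0) + 0 * (0 * q.1 0 0 + z * y ^ 2 * q.1 1 0 + 0 * q.1 2 0) +
          0 * (0 * q.1 0 0 + 0 * q.1 1 0 + (z * y ^ 2) ^ 2 * q.1 2 0) = x
        rw [q0]
        ring
      · show 0 * (1 * q.1 0 0 + 0 * q.1 1 0 + 0 * q.1 2 0) + x * (0 * q.1 0 0 + z * y ^ 2 * q.1 1 0 + 0 * q.1 2 0) +
          0 * (0 * q.1 0 0 + 0 * q.1 1 0 + (z * y ^ 2) ^ 2 * q.1 2 0) = y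
        rw [q1]
        linear_combination (y ^ 4 * z ^ 3) * hx3 + y ^ 4 * hz3 + y * hy3
      · show 0 * (1 * q.1 0 0 + 0 * q.1 1 0 + 0 * q.1 2 0) + 0 * (0 * q.1 0 0 + z * y ^ 2 * q.1 1 0 + 0 * q.1 2 0) +
          x * (0 * q.1 0 0 + 0 * q.1 1 0 + (z * y ^ 2) ^ 2 * q.1 2 0) = z
        rw [q2]
        linear_combination (y ^ 6 * z ^ 4) * hx3 + (y ^ 6 * z) * hz3 + (z * y ^ 3 + z) * hy3

include hF h0 h1 h2 hi hj in
/-- **the unitary group is generated by `s0`, `g1`, `g2`, `gi`, `gj`** -/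
theorem mem_of_unitary (hT : ∀ t ∈ T, hact t (1 : M3 F) = 1) {g : G3 F} (hg : hact g (1 : M3 F) = 1) : g ∈ T := by
  obtain ⟨t, ht, e0, e1, e2⟩ := column hF hw h0 h1 h2 hi hj (unit_eq hg).2
  have hcol : ∀ k, (t⁻¹ * g : G3 F).1 k 0 = (1 : M3 F) k 0 := by
    intro k
    have h3 : (t⁻¹ * g : G3 F).1 k 0 = (t⁻¹ * t : G3 F).1 k 0 := by
      rw [co_mul, co_mul, Matrix.mul_apply, Matrix.mul_apply, Fin.sum_univ_three, Fin.sum_univ_three, e0, e1, e2]
    rw [h3, inv_mul_cancel]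
    rfl
  have h3 : t⁻¹ * g ∈ T := stab hF hw h1 hi
    ((RR hF).mul_mem ((RR hF).inv_mem (hT t ht)) hg) (hcol 0) (hcol 1) (hcol 2)
  have h4 : g = t * (t⁻¹ * g) := by group
  rw [h4]
  exact T.mul_mem ht h3

end

/-- (S8) the vectors fixed by `E`, `gi`, `gj` are fixed by the unitary group -/
theorem hgen (hF : Fintype.card F = 4) {w : F} (hw : w ^ 2 + w + 1 = 0) {V : Type} [AddCommGroup V] [Module (ZMod 2) V]
    {ρ : Representation (ZMod 2) (G3 F) V} {E : Subgroup (G3 F)}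
    (hE : ∀ g : G3 F, g ∈ E ↔ (hact g (1 : M3 F) = 1 ∧ g ^ 3 = 1)) (v : V) (hv : v ∈ VE ρ E)
    (hi : ρ (gi w hw hF) v = v) (hj : ρ (gj w hw hF) v = v) (g : G3 F) (hg : hact g (1 : M3 F) = 1) : ρ g v = v := by
  rw [mem_VE] at hv
  let T : Subgroup (G3 F) :=
    { carrier := {g | hact g (1 : M3 F) = 1 ∧ ρ g v = v}
      one_mem' := ⟨(RR hF).one_mem, by rw [map_one]; rfl⟩
      mul_mem' := by
        rintro g h ⟨hg1, hg⟩ ⟨hh1, hh⟩
        refine ⟨(RR hF).mul_mem hg1 hh1, ?_⟩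
        rw [map_mul, Module.End.mul_apply, hh, hg]
      inv_mem' := by
        rintro g ⟨hg1, hg⟩
        refine ⟨(RR hF).inv_mem hg1, ?_⟩
        have h5 : ρ g⁻¹ (ρ g v) = v := by
          rw [← Module.End.mul_apply, ← map_mul, inv_mul_cancel, map_one]
          rfl
        rwa [hg] at h5 }
  have h0 : s0 w hw ∈ T := ⟨mem_R_s0 hw hF, hv _ ((hE _).2 ⟨mem_R_s0 hw hF, s0_cube hw⟩)⟩
  have h1 : g1 w hw ∈ T := ⟨mem_R_g1 hw hF, hv _ ((hE _).2 ⟨mem_R_g1 hw hF, g1_cube hw⟩)⟩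
  have h2 : (g2 : G3 F) ∈ T := ⟨mem_R_g2 hF, hv _ ((hE _).2 ⟨mem_R_g2 hF, g2_cube⟩)⟩
  exact (mem_of_unitary hF hw (T := T) h0 h1 h2 ⟨mem_gi hw hF, hi⟩ ⟨mem_gj hw hF, hj⟩ (fun t ht => ht.1) hg).2

end Cfsg.Agent.H955.L34.Gen
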